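import Mathlib
import Cfsg.Prelude.Def_DStar
import Cfsg.Agent.Lib.NormalAbelian
set_option linter.all false

/-!
# The subgroup `D*(S)` of Glauberman and Solomon

A member of the family behind `D*(S)` centralises every abelian subgroup that it normalises;
hence it lies in every maximal normal abelian subgroup, and `D*(S)` is itself a member.
-/

set_option autoImplicit false

open Subgroup
open scoped commutatorElement

namespace Cfsg.Agent.H276

variable {S : Type*} [Group S]

/-- If the commutators of the generators of `H` are centralised by `H`, then `H' ≤ C(H)`. -/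
theorem commutator_closure_le_centralizer (T : Set S)
    (h : ∀ x ∈ T, ∀ y ∈ T, ⁅x, y⁆ ∈ centralizer (closure T : Set S)) :
    ⁅closure T, closure T⁆ ≤ centralizer (closure T : Set S) := by
  have key : ∀ x ∈ closure T, (∀ y ∈ T, ⁅x, y⁆ ∈ centralizer (closure T : Set S)) →
      ∀ y ∈ closure T, ⁅x, y⁆ ∈ centralizer (closure T : Set S) := by
    intro x hx hT y hy
    induction hy using closure_induction with
    | mem y hy => exact hT y hy
    | one => simp
    | mul y z hy hz ihy ihz =>
      have e : ⁅x, y * z⁆ = ⁅x, y⁆ * (y * ⁅x, z⁆ * y⁻¹) := by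
        simp only [commutatorElement_def]; group
      have e2 : y * ⁅x, z⁆ * y⁻¹ = ⁅x, z⁆ := by
        have := mem_centralizer_iff.mp ihz y hy
        rw [this]; group
      rw [e, e2]
      exact mul_mem ihy ihz
    | inv y hy ihy =>
      have e : ⁅x, y⁻¹⁆ = y⁻¹ * ⁅x, y⁆⁻¹ * y := by
        simp only [commutatorElement_def]; group
      have e2 : y⁻¹ * ⁅x, y⁆⁻¹ * y = ⁅x, y⁆⁻¹ := by
        have := mem_centralizer_iff.mp (inv_mem ihy) y⁻¹ (inv_mem hy)
        rw [this]; group
      rw [e, e2]
      exact inv_mem ihy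
  rw [commutator_le]
  intro x hx y hy
  refine key x hx ?_ y hy
  intro t ht
  have := key t (subset_closure ht) (fun y hy => h t ht y hy) x hx
  rw [← commutatorElement_inv]
  exact inv_mem this

/-- A member `A` of the family behind `D*(S)` centralises every abelian subgroup on which it acts
quadratically. -/
theorem family_centralizes_of_quadratic {A B : Subgroup S} (hA : A ∈ Cfsg.dStarFamily S)
    (hB : IsMulCommutative B) (hn : ⁅B, A⁆ ≤ B) (hq : ⁅⁅B, A⁆, A⁆ = ⊥) :
    ⁅B, A⁆ = ⊥ := by
  obtain ⟨hAc, hA2⟩ := hA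
  rw [commutator_eq_bot_iff_le_centralizer]
  intro b hb
  rw [mem_centralizer_iff]
  intro a ha
  refine hA2 b ?_ a ha
  have hH : A ⊔ zpowers b = closure ((A : Set S) ∪ {b}) := by
    rw [Subgroup.closure_union, closure_eq, zpowers_eq_closure]
  rw [hH, commutator_eq_bot_iff_le_centralizer]
  have hcAA : ∀ x ∈ A, ∀ y ∈ A, x * y = y * x := fun x hx y hy =>
    congrArg Subtype.val (hAc.is_comm.comm ⟨x, hx⟩ ⟨y, hy⟩)
  have hcBB : ∀ x ∈ B, ∀ y ∈ B, x * y = y * x := fun x hx y hy =>
    congrArg Subtype.val (hB.is_comm.comm ⟨x, hx⟩ ⟨y, hy⟩)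
  have hcen : ∀ c : S, (∀ x ∈ A, x * c = c * x) → b * c = c * b →
      c ∈ centralizer (closure ((A : Set S) ∪ {b}) : Set S) := by
    intro c h1 h2
    rw [centralizer_closure, mem_centralizer_iff]
    rintro x (hx | hx)
    · exact h1 x hx
    · rw [Set.mem_singleton_iff] at hx; subst hx; exact h2
  have hbA : ∀ x ∈ A, ⁅b, x⁆ ∈ centralizer (closure ((A : Set S) ∪ {b}) : Set S) := by
    intro x hx
    have hm : ⁅b, x⁆ ∈ ⁅B, A⁆ := commutator_mem_commutator hb hx
    refine hcen _ ?_ ?_
    · intro y hy
      have := (commutator_eq_bot_iff_le_centralizer.mp hq) hm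
      exact mem_centralizer_iff.mp this y hy
    · exact hcBB b hb _ (hn hm)
  apply commutator_closure_le_centralizer
  rintro x (hx | hx) y (hy | hy)
  · have : ⁅x, y⁆ = 1 := by
      rw [commutatorElement_eq_one_iff_mul_comm]; exact hcAA x hx y hy
    rw [this]; exact one_mem _
  · rw [Set.mem_singleton_iff] at hy; subst hy
    rw [← commutatorElement_inv]; exact inv_mem (hbA x hx)
  · rw [Set.mem_singleton_iff] at hx; subst hx
    exact hbA y hy
  · rw [Set.mem_singleton_iff] at hx hy; subst hx; subst hy
    rw [commutatorElement_self]; exact one_mem _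

/-- The iterated commutators `[B, A, ..., A]`. -/
def iterComm (B A : Subgroup S) : ℕ → Subgroup S
  | 0 => B
  | n + 1 => ⁅iterComm B A n, A⁆

theorem iterComm_succ' (B A : Subgroup S) (n : ℕ) :
    iterComm B A (n + 1) = iterComm ⁅B, A⁆ A n := by
  induction n with
  | zero => rfl
  | succ n ih => rw [iterComm, ih, iterComm]

theorem iterComm_le_lowerCentralSeries (B A : Subgroup S) (n : ℕ) :
    iterComm B A n ≤ (⊤ : Subgroup S).lowerCentralSeries n := by
  induction n with
  | zero => exact le_top
  | succ n ih =>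
    rw [iterComm, Subgroup.lowerCentralSeries_succ]
    exact commutator_mono ih le_top

theorem family_centralizes_aux {A : Subgroup S} (hA : A ∈ Cfsg.dStarFamily S) (n : ℕ) :
    ∀ B : Subgroup S, IsMulCommutative B → ⁅B, A⁆ ≤ B → iterComm B A (n + 1) = ⊥ → ⁅B, A⁆ = ⊥ := by
  induction n with
  | zero => intro B _ _ h; exact h
  | succ n ih =>
    intro B hB hn h
    rw [iterComm_succ'] at h
    have hB' : IsMulCommutative (⁅B, A⁆ : Subgroup S) := by
      refine ⟨⟨fun x y => Subtype.ext ?_⟩⟩
      have := congrArg Subtype.val (hB.is_comm.comm ⟨x.1, hn x.2⟩ ⟨y.1, hn y.2⟩)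
      exact this
    have := ih ⁅B, A⁆ hB' (commutator_mono hn le_rfl) h
    exact family_centralizes_of_quadratic hA hB hn this

/-- In a nilpotent group, a member `A` of the family behind `D*(S)` centralises every abelian
subgroup that it normalises. -/
theorem family_centralizes [Group.IsNilpotent S] {A B : Subgroup S} (hA : A ∈ Cfsg.dStarFamily S)
    (hB : IsMulCommutative B) (hn : ⁅B, A⁆ ≤ B) : ⁅B, A⁆ = ⊥ := by
  obtain ⟨n, hn'⟩ := Subgroup.nilpotent_iff_lowerCentralSeries.mp
    (inferInstance : Group.IsNilpotent S)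
  refine family_centralizes_aux hA n B hB hn (le_bot_iff.mp ?_)
  calc iterComm B A (n + 1) ≤ iterComm B A n := by
        have hle : ∀ k, iterComm B A k ≤ B ∧ iterComm B A (k + 1) ≤ iterComm B A k := by
          intro k
          induction k with
          | zero => exact ⟨le_rfl, hn⟩
          | succ k ih =>
            refine ⟨ih.2.trans ih.1, ?_⟩
            exact commutator_mono ih.2 le_rfl
        exact (hle n).2
    _ ≤ (⊤ : Subgroup S).lowerCentralSeries n := iterComm_le_lowerCentralSeries _ _ _
    _ = ⊥ := hn'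

/-- A member of the family lies in every maximal normal abelian subgroup of a nilpotent group. -/
theorem family_le_of_maximal [Group.IsNilpotent S] {A B : Subgroup S}
    (hA : A ∈ Cfsg.dStarFamily S) (hBn : B.Normal) (hB : IsMulCommutative B)
    (hmax : ∀ C : Subgroup S, C.Normal → IsMulCommutative C → B ≤ C → C ≤ B) : A ≤ B := by
  have h1 : ⁅B, A⁆ = ⊥ := family_centralizes hA hB (commutator_le_left B A)
  rw [← Cfsg.Agent.Lib.NormalAbelian.centralizer_eq_of_maximal_normal_abelian hBn hB hmax]
  rw [commutator_comm] at h1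
  exact commutator_eq_bot_iff_le_centralizer.mp h1

theorem dStar_le_of_maximal [Group.IsNilpotent S] {B : Subgroup S}
    (hBn : B.Normal) (hB : IsMulCommutative B)
    (hmax : ∀ C : Subgroup S, C.Normal → IsMulCommutative C → B ≤ C → C ≤ B) :
    Cfsg.dStar S ≤ B :=
  sSup_le fun _ hA => family_le_of_maximal hA hBn hB hmax

/-- `D*(S)` is abelian. -/
theorem dStar_comm [Finite S] [Group.IsNilpotent S] : IsMulCommutative (Cfsg.dStar S) := by
  obtain ⟨B, -, hBn, hBc, -, hmax⟩ :=
    Cfsg.Agent.Lib.NormalAbelian.exists_normal_abelian_selfCentralizing_ge (G := S) ⊥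
      inferInstance inferInstance
  have hle := dStar_le_of_maximal hBn hBc hmax
  refine ⟨⟨fun x y => Subtype.ext ?_⟩⟩
  have := congrArg Subtype.val (hBc.is_comm.comm ⟨x.1, hle x.2⟩ ⟨y.1, hle y.2⟩)
  exact this

/-- `D*(S)` belongs to its defining family. -/
theorem dStar_mem_family [Finite S] [Group.IsNilpotent S] : Cfsg.dStar S ∈ Cfsg.dStarFamily S := by
  refine ⟨dStar_comm, ?_⟩
  intro x hx
  have hkey : ∀ A ∈ Cfsg.dStarFamily S, A ≤ centralizer {x} := by
    intro A hA a ha
    rw [mem_centralizer_iff]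
    intro y hy
    rw [Set.mem_singleton_iff] at hy; subst hy
    refine (hA.2 y ?_ a ha).symm
    rw [← le_bot_iff, ← hx]
    have hle : A ⊔ zpowers y ≤ Cfsg.dStar S ⊔ zpowers y := sup_le_sup_right (le_sSup hA) _
    exact commutator_mono (commutator_mono hle hle) hle
  intro a ha
  have : a ∈ centralizer {x} := (sSup_le hkey) ha
  exact (mem_centralizer_iff.mp this x rfl).symm

/-- The centre lies in `D*(S)`. -/
theorem center_le_dStar : Subgroup.center S ≤ Cfsg.dStar S := by
  refine le_sSup ⟨inferInstance, ?_⟩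
  intro x _ a ha
  exact (mem_center_iff.mp ha x).symm

end Cfsg.Agent.H276
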