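import Mathlib
import Cfsg.Prelude.Def_PLocal
import Cfsg.Agent.H276.DStar
set_option linter.all false

-- part: H276/Replace
section
/-!
# The replacement lemma (Thompson)

`M` is a normal abelian subgroup of a finite group `P`, `A` an abelian subgroup of maximal order,
`g ∈ P`, and every `⁅g, a⁆` with `a ∈ A` lies in `M` and normalises `A`.
Then there is an abelian subgroup `A'` of the same order containing `A ∩ M` and all
`⁅g, a⁆`, inside every normal subgroup containing `A`, and `A' ∩ M = (A ∩ M) ⁅g, A⁆`.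
-/

set_option autoImplicit false

open Subgroup
open scoped commutatorElement

namespace Cfsg.Agent.H276

variable {P : Type*} [Group P]

theorem commS {A : Subgroup P} (hA : IsMulCommutative A) {x y : P} (hx : x ∈ A) (hy : y ∈ A) :
    x * y = y * x := by
  have := congrArg Subtype.val (hA.is_comm.comm ⟨x, hx⟩ ⟨y, hy⟩)
  exact this

theorem isMulCommutative_of {A : Subgroup P} (h : ∀ x ∈ A, ∀ y ∈ A, x * y = y * x) :
    IsMulCommutative A :=
  ⟨⟨fun x y => Subtype.ext (h x.1 x.2 y.1 y.2)⟩⟩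

/-- An abelian subgroup of maximal order is its own centraliser. -/
theorem mem_of_centralizes_max [Finite P] {A : Subgroup P} (hA : A ∈ Cfsg.maxAbelianSubgroups P)
    {x : P} (hx : ∀ a ∈ A, a * x = x * a) : x ∈ A := by
  have hc : IsMulCommutative (A ⊔ zpowers x : Subgroup P) := by
    have hle : A ⊔ zpowers x ≤ centralizer ((A ⊔ zpowers x : Subgroup P) : Set P) := by
      have h1 : A ≤ centralizer ((A ⊔ zpowers x : Subgroup P) : Set P) := by
        rw [le_centralizer_iff, sup_le_iff]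
        refine ⟨?_, ?_⟩
        · intro a ha
          rw [mem_centralizer_iff]
          exact fun b hb => commS hA.1 hb ha
        · rw [zpowers_le, mem_centralizer_iff]
          exact hx
      refine sup_le h1 ?_
      rw [le_centralizer_iff, sup_le_iff]
      refine ⟨?_, ?_⟩
      · intro a ha
        rw [mem_centralizer_iff]
        intro y hy
        obtain ⟨k, rfl⟩ := mem_zpowers_iff.mp hy
        exact ((show Commute x a from (hx a ha).symm).zpow_left k)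
      · rw [zpowers_le, mem_centralizer_iff]
        intro y hy
        obtain ⟨k, rfl⟩ := mem_zpowers_iff.mp hy
        exact ((Commute.refl x).zpow_left k)
    exact isMulCommutative_of fun a ha b hb => (mem_centralizer_iff.mp (hle hb) a ha)
  have hcard := hA.2 _ hc
  have : A = A ⊔ zpowers x := eq_of_le_of_card_ge le_sup_left hcard
  rw [this]
  exact mem_sup_right (mem_zpowers x)

/-- **Replacement lemma.** -/
theorem exists_replacement [Finite P] {A M : Subgroup P} (hM : M.Normal)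
    (hMc : IsMulCommutative M) (hA : A ∈ Cfsg.maxAbelianSubgroups P) (g : P)
    (hgM : ∀ a ∈ A, ⁅g, a⁆ ∈ M)
    (hgN : ∀ a ∈ A, ∀ b ∈ A, ⁅g, a⁆ * b * ⁅g, a⁆⁻¹ ∈ A) :
    ∃ B ∈ Cfsg.maxAbelianSubgroups P, A ⊓ M ≤ B ∧ (∀ a ∈ A, ⁅g, a⁆ ∈ B) ∧
      (∀ N : Subgroup P, N.Normal → A ≤ N → B ≤ N) ∧
      (∀ x ∈ B, x ∈ M → ∃ a ∈ A, ∃ z ∈ A ⊓ M, x = z * ⁅g, a⁆) := by
  classical
  -- notation: c a = ⁅g, a⁆
  have hcmul : ∀ a b : P, ⁅g, a * b⁆ = ⁅g, a⁆ * (a * ⁅g, b⁆ * a⁻¹) := by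
    intro a b; simp only [commutatorElement_def]; group
  -- symmetry
  have hsym : ∀ a ∈ A, ∀ b ∈ A, ⁅a, ⁅g, b⁆⁆ = ⁅b, ⁅g, a⁆⁆ := by
    intro a ha b hb
    have e1 := hcmul a b
    have e2 := hcmul b a
    rw [commS hA.1 ha hb] at e1
    rw [e1] at e2
    -- e2 : c a * (a * c b * a⁻¹) = c b * (b * c a * b⁻¹)
    have hma : b * ⁅g, a⁆ * b⁻¹ ∈ M := hM.conj_mem _ (hgM a ha) b
    have hmb : a * ⁅g, b⁆ * a⁻¹ ∈ M := hM.conj_mem _ (hgM b hb) a
    rw [commS hMc (hgM a ha) hmb] at e2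
    rw [commS hMc (hgM b hb) hma] at e2
    have h3 : a * ⁅g, b⁆ * a⁻¹ * ⁅g, b⁆⁻¹ = b * ⁅g, a⁆ * b⁻¹ * ⁅g, a⁆⁻¹ := by
      have hx : a * ⁅g, b⁆ * a⁻¹ = b * ⁅g, a⁆ * b⁻¹ * ⁅g, b⁆ * ⁅g, a⁆⁻¹ := by
        rw [← e2]; group
      rw [hx]
      have := commS hMc (inv_mem (hgM a ha)) (hgM b hb)
      calc b * ⁅g, a⁆ * b⁻¹ * ⁅g, b⁆ * ⁅g, a⁆⁻¹ * ⁅g, b⁆⁻¹
          = b * ⁅g, a⁆ * b⁻¹ * (⁅g, b⁆ * ⁅g, a⁆⁻¹) * ⁅g, b⁆⁻¹ := by group
        _ = b * ⁅g, a⁆ * b⁻¹ * (⁅g, a⁆⁻¹ * ⁅g, b⁆) * ⁅g, b⁆⁻¹ := by rw [this]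
        _ = _ := by group
    rw [commutatorElement_def, commutatorElement_def]
    exact h3
  -- the commutators ⁅a, c b⁆ lie in Z = A ⊓ M
  have hZ : ∀ a ∈ A, ∀ b ∈ A, ⁅a, ⁅g, b⁆⁆ ∈ A ⊓ M := by
    intro a ha b hb
    refine mem_inf.mpr ⟨?_, ?_⟩
    · have := hgN b hb a⁻¹ (inv_mem ha)
      have e : ⁅a, ⁅g, b⁆⁆ = a * (⁅g, b⁆ * a⁻¹ * ⁅g, b⁆⁻¹) := by
        rw [commutatorElement_def]; group
      rw [e]; exact mul_mem ha this
    · have e : ⁅a, ⁅g, b⁆⁆ = (a * ⁅g, b⁆ * a⁻¹) * ⁅g, b⁆⁻¹ := by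
        rw [commutatorElement_def]
      rw [e]
      exact mul_mem (hM.conj_mem _ (hgM b hb) a) (inv_mem (hgM b hb))
  -- Z centralises A and M
  have hZA : ∀ z ∈ A ⊓ M, ∀ a ∈ A, z * a = a * z := fun z hz a ha => commS hA.1 hz.1 ha
  have hZM : ∀ z ∈ A ⊓ M, ∀ m ∈ M, z * m = m * z := fun z hz m hm => commS hMc hz.2 hm
  -- c(ab) = c a * c b * z
  have hcm : ∀ a ∈ A, ∀ b ∈ A, ∃ z ∈ A ⊓ M, ⁅g, a * b⁆ = z * (⁅g, a⁆ * ⁅g, b⁆) := by
    intro a ha b hb
    refine ⟨⁅a, ⁅g, b⁆⁆, hZ a ha b hb, ?_⟩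
    rw [hcmul a b]
    have e : a * ⁅g, b⁆ * a⁻¹ = ⁅a, ⁅g, b⁆⁆ * ⁅g, b⁆ := by rw [commutatorElement_def]; group
    rw [e, ← mul_assoc, ← hZM _ (hZ a ha b hb) _ (hgM a ha)]
    group
  -- the subgroup Y
  let Y : Subgroup P :=
    { carrier := {x | ∃ a ∈ A, ∃ z ∈ A ⊓ M, x = z * ⁅g, a⁆}
      one_mem' := ⟨1, one_mem _, 1, one_mem _, by simp⟩
      mul_mem' := by
        rintro _ _ ⟨a, ha, z, hz, rfl⟩ ⟨b, hb, w, hw, rfl⟩
        obtain ⟨u, hu, hu2⟩ := hcm a ha b hb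
        refine ⟨a * b, mul_mem ha hb, z * w * u⁻¹, mul_mem (mul_mem hz hw) (inv_mem hu), ?_⟩
        rw [hu2]
        have := hZM w hw _ (hgM a ha)
        calc z * ⁅g, a⁆ * (w * ⁅g, b⁆) = z * (⁅g, a⁆ * w) * ⁅g, b⁆ := by group
          _ = z * (w * ⁅g, a⁆) * ⁅g, b⁆ := by rw [this]
          _ = _ := by group
      inv_mem' := by
        rintro _ ⟨a, ha, z, hz, rfl⟩
        obtain ⟨u, hu, hu2⟩ := hcm a ha a⁻¹ (inv_mem ha)
        rw [mul_inv_cancel] at hu2
        have h1 : ⁅g, (1 : P)⁆ = 1 := commutatorElement_one_right g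
        rw [h1] at hu2
        refine ⟨a⁻¹, inv_mem ha, z⁻¹ * u, mul_mem (inv_mem hz) hu, ?_⟩
        have h2 : u * ⁅g, a⁻¹⁆ = ⁅g, a⁆⁻¹ := by
          have h4 := hZM u hu _ (hgM a ha)
          rw [eq_inv_iff_mul_eq_one]
          have h5 := commS hMc (hgM a ha) (hgM a⁻¹ (inv_mem ha))
          calc u * ⁅g, a⁻¹⁆ * ⁅g, a⁆ = u * (⁅g, a⁻¹⁆ * ⁅g, a⁆) := by group
            _ = u * (⁅g, a⁆ * ⁅g, a⁻¹⁆) := by rw [h5]
            _ = 1 := hu2.symm
        rw [mul_inv_rev, mul_assoc, h2]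
        exact (commS hMc (inv_mem (hgM a ha)) (inv_mem hz.2)) }
  have hYM : Y ≤ M := by
    rintro _ ⟨a, ha, z, hz, rfl⟩
    exact mul_mem hz.2 (hgM a ha)
  have hZY : A ⊓ M ≤ Y := fun z hz => ⟨1, one_mem _, z, hz, by simp⟩
  have hcY : ∀ a ∈ A, ⁅g, a⁆ ∈ Y := fun a ha => ⟨a, ha, 1, one_mem _, by simp⟩
  -- K = C_A(Y)
  let K : Subgroup P := A ⊓ centralizer (Y : Set P)
  have hKA : K ≤ A := inf_le_left
  have hKiff : ∀ a ∈ A, (a ∈ K ↔ ⁅g, a⁆ ∈ A ⊓ M) := by
    intro a ha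
    constructor
    · rintro ⟨-, hk⟩
      refine mem_inf.mpr ⟨?_, hgM a ha⟩
      apply mem_of_centralizes_max hA
      intro b hb
      have h1 : ⁅a, ⁅g, b⁆⁆ = 1 := by
        rw [commutatorElement_eq_one_iff_mul_comm]
        exact (mem_centralizer_iff.mp hk _ (hcY b hb)).symm
      rw [hsym a ha b hb, commutatorElement_eq_one_iff_mul_comm] at h1
      exact h1
    · intro hk
      refine mem_inf.mpr ⟨ha, ?_⟩
      rw [mem_centralizer_iff]
      rintro _ ⟨b, hb, z, hz, rfl⟩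
      have h1 : ⁅b, ⁅g, a⁆⁆ = 1 := by
        rw [commutatorElement_eq_one_iff_mul_comm]
        exact (hZA _ hk b hb).symm
      rw [← hsym a ha b hb, commutatorElement_eq_one_iff_mul_comm] at h1
      rw [mul_assoc, ← h1, ← mul_assoc, hZA z hz a ha, mul_assoc]
  have hYKc : ∀ y ∈ Y, ∀ k ∈ K, y * k = k * y := fun y hy k hk =>
    mem_centralizer_iff.mp hk.2 y hy
  -- B = Y ⊔ K
  let B : Subgroup P :=
    { carrier := {x | ∃ y ∈ Y, ∃ k ∈ K, x = y * k}
      one_mem' := ⟨1, one_mem _, 1, one_mem _, by simp⟩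
      mul_mem' := by
        rintro _ _ ⟨y, hy, k, hk, rfl⟩ ⟨y', hy', k', hk', rfl⟩
        refine ⟨y * y', mul_mem hy hy', k * k', mul_mem hk hk', ?_⟩
        have := hYKc y' hy' k hk
        calc y * k * (y' * k') = y * (k * y') * k' := by group
          _ = y * (y' * k) * k' := by rw [this]
          _ = _ := by group
      inv_mem' := by
        rintro _ ⟨y, hy, k, hk, rfl⟩
        refine ⟨y⁻¹, inv_mem hy, k⁻¹, inv_mem hk, ?_⟩
        rw [mul_inv_rev]
        exact (hYKc _ (inv_mem hy) _ (inv_mem hk)).symm }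
  have hYB : Y ≤ B := fun y hy => ⟨y, hy, 1, one_mem _, by simp⟩
  have hBc : IsMulCommutative B := by
    apply isMulCommutative_of
    rintro _ ⟨y, hy, k, hk, rfl⟩ _ ⟨y', hy', k', hk', rfl⟩
    have h1 := hYKc y' hy' k hk
    have h2 := hYKc y hy k' hk'
    have h3 := commS hMc (hYM hy) (hYM hy')
    have h4 := commS hA.1 (hKA hk) (hKA hk')
    calc y * k * (y' * k') = y * (k * y') * k' := by group
      _ = y * (y' * k) * k' := by rw [h1]
      _ = (y * y') * (k * k') := by group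
      _ = (y' * y) * (k' * k) := by rw [h3, h4]
      _ = y' * (y * k') * k := by group
      _ = y' * (k' * y) * k := by rw [h2]
      _ = _ := by group
  -- |A| ≤ |B|
  have hcard : Nat.card A ≤ Nat.card B := by
    let q : A → A ⧸ K.subgroupOf A := fun a => QuotientGroup.mk a
    let t : A → A := fun a => (q a).out
    have ht : ∀ a : A, ((t a)⁻¹ * a : A).1 ∈ K := by
      intro a
      have : (QuotientGroup.mk (t a) : A ⧸ K.subgroupOf A) = QuotientGroup.mk a :=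
        Quotient.out_eq' (q a)
      exact mem_subgroupOf.mp (QuotientGroup.eq.mp this)
    let f : A → B := fun a =>
      ⟨⁅g, (t a : P)⁆ * ((t a)⁻¹ * a : A).1, ⟨_, hcY _ (t a).2, _, ht a, rfl⟩⟩
    refine Nat.card_le_card_of_injective f ?_
    intro a b hab
    have h1 : ⁅g, (t a : P)⁆ * ((t a)⁻¹ * a : A).1 = ⁅g, (t b : P)⁆ * ((t b)⁻¹ * b : A).1 :=
      congrArg Subtype.val hab
    have h2 : ⁅g, (t b : P)⁆⁻¹ * ⁅g, (t a : P)⁆ = ((t b)⁻¹ * b : A).1 * (((t a)⁻¹ * a : A).1)⁻¹ := by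
      rw [eq_mul_inv_iff_mul_eq, mul_assoc, h1, inv_mul_cancel_left]
    have h3 : ⁅g, (t b : P)⁆⁻¹ * ⁅g, (t a : P)⁆ ∈ A ⊓ M := by
      refine mem_inf.mpr ⟨?_, mul_mem (inv_mem (hgM _ (t b).2)) (hgM _ (t a).2)⟩
      rw [h2]
      exact mul_mem (hKA (ht b)) (inv_mem (hKA (ht a)))
    -- c (t b⁻¹ * t a) ∈ Z
    have h4 : ⁅g, (t b : P) * ((t b : P)⁻¹ * (t a : P))⁆ = ⁅g, (t a : P)⁆ := by
      rw [mul_inv_cancel_left]
    obtain ⟨z, hz, hz2⟩ := hcm (t b : P) (t b).2 ((t b : P)⁻¹ * (t a : P))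
      (mul_mem (inv_mem (t b).2) (t a).2)
    rw [h4] at hz2
    have h5 : ⁅g, (t b : P)⁻¹ * (t a : P)⁆ ∈ A ⊓ M := by
      have e : ⁅g, (t b : P)⁻¹ * (t a : P)⁆ = z⁻¹ * (⁅g, (t b : P)⁆⁻¹ * ⁅g, (t a : P)⁆) := by
        have h6 := hZM z hz _ (inv_mem (hgM _ (t b).2))
        rw [hz2]
        calc ⁅g, (t b : P)⁻¹ * (t a : P)⁆
            = z⁻¹ * (z * ⁅g, (t b : P)⁆⁻¹) * (⁅g, (t b : P)⁆ * ⁅g, (t b : P)⁻¹ * (t a : P)⁆) := by
              group
          _ = z⁻¹ * (⁅g, (t b : P)⁆⁻¹ * z) * (⁅g, (t b : P)⁆ * ⁅g, (t b : P)⁻¹ * (t a : P)⁆) := by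
              rw [h6]
          _ = _ := by group
      rw [e]; exact mul_mem (inv_mem hz) h3
    have h6 : (t b : P)⁻¹ * (t a : P) ∈ K :=
      (hKiff _ (mul_mem (inv_mem (t b).2) (t a).2)).mpr h5
    have h7 : q b = q a := by
      have e1 : (QuotientGroup.mk (t b) : A ⧸ K.subgroupOf A) = q b := Quotient.out_eq' (q b)
      have e2 : (QuotientGroup.mk (t a) : A ⧸ K.subgroupOf A) = q a := Quotient.out_eq' (q a)
      rw [← e1, ← e2, QuotientGroup.eq, mem_subgroupOf]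
      exact h6
    have h8 : t b = t a := by simp only [t, h7]
    rw [h8] at h1
    have h9 := mul_left_cancel h1
    have h10 : (t a)⁻¹ * a = (t a)⁻¹ * b := Subtype.ext h9
    exact mul_left_cancel h10
  refine ⟨B, ⟨hBc, fun C hC => (hA.2 C hC).trans hcard⟩, hZY.trans hYB, fun a ha => hYB (hcY a ha),
    ?_, ?_⟩
  · intro N hN hAN
    rintro _ ⟨y, hy, k, hk, rfl⟩
    refine mul_mem ?_ (hAN (hKA hk))
    obtain ⟨a, ha, z, hz, rfl⟩ := hy
    refine mul_mem (hAN hz.1) ?_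
    have e : ⁅g, a⁆ = (g * a * g⁻¹) * a⁻¹ := by rw [commutatorElement_def]
    rw [e]
    exact mul_mem (hN.conj_mem _ (hAN ha) g) (inv_mem (hAN ha))
  · rintro _ ⟨y, hy, k, hk, rfl⟩ hx
    have hkM : k ∈ M := by
      have := mul_mem (inv_mem (hYM hy)) hx
      rwa [inv_mul_cancel_left] at this
    have : y * k ∈ Y := mul_mem hy (hZY ⟨hKA hk, hkM⟩)
    exact this

end Cfsg.Agent.H276
end

-- part: H276/DStarTwo
section
/-!
# `D*(S) ≤ Z(J(S))`, and the weak replacement theorem for metabelian `p`-groups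
-/

set_option autoImplicit false

open Subgroup
open scoped commutatorElement

namespace Cfsg.Agent.H276

variable {S : Type*} [Group S]

theorem mem_family_map {T : Type*} [Group T] (e : S ≃* T) {A : Subgroup S}
    (hA : A ∈ Cfsg.dStarFamily S) : A.map e.toMonoidHom ∈ Cfsg.dStarFamily T := by
  refine ⟨?_, ?_⟩
  · apply isMulCommutative_of
    rintro _ ⟨x, hx, rfl⟩ _ ⟨y, hy, rfl⟩
    rw [← map_mul, ← map_mul, commS hA.1 hx hy]
  · intro x hx
    obtain ⟨y, rfl⟩ := e.surjective x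
    rintro _ ⟨a, ha, rfl⟩
    have hz : zpowers (e y) = (zpowers y).map e.toMonoidHom := by
      rw [MonoidHom.map_zpowers]; rfl
    rw [hz, ← Subgroup.map_sup, ← map_commutator, ← map_commutator,
      (Subgroup.map_eq_bot_iff_of_injective _ e.injective)] at hx
    have := hA.2 y hx a ha
    have h2 := congrArg e this
    rw [map_mul, map_mul] at h2
    exact h2

theorem dStar_map {T : Type*} [Group T] (e : S ≃* T) :
    (Cfsg.dStar S).map e.toMonoidHom = Cfsg.dStar T := by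
  apply le_antisymm
  · rw [map_le_iff_le_comap]
    refine sSup_le fun A hA => ?_
    rw [← map_le_iff_le_comap]
    exact le_sSup (mem_family_map e hA)
  · refine sSup_le fun B hB => ?_
    have h1 : B.map e.symm.toMonoidHom ≤ Cfsg.dStar S := le_sSup (mem_family_map e.symm hB)
    intro b hb
    refine ⟨e.symm b, h1 ⟨b, hb, rfl⟩, ?_⟩
    exact e.apply_symm_apply b

instance dStar_normal : (Cfsg.dStar S).Normal := by
  refine ⟨fun n hn g => ?_⟩
  have h := dStar_map (MulAut.conj g : S ≃* S)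
  rw [← h]
  exact ⟨n, hn, rfl⟩

/-- If `M` does not normalise `A`, some element `m` of `M` does not normalise `A`, while all
`⁅m, a⁆` do. -/
theorem exists_replacer [Group.IsNilpotent S] {A M : Subgroup S}
    (h : ¬ M ≤ normalizer (A : Set S)) (hMn : M.Normal) :
    ∃ m ∈ M, m ∉ normalizer (A : Set S) ∧ ∀ a ∈ A, ⁅m, a⁆ ∈ M ∧ ⁅m, a⁆ ∈ normalizer (A : Set S) := by
  classical
  obtain ⟨n, hn'⟩ := Subgroup.nilpotent_iff_lowerCentralSeries.mp
    (inferInstance : Group.IsNilpotent S)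
  have hex : ∃ k, iterComm M A k ≤ normalizer (A : Set S) := by
    refine ⟨n, ?_⟩
    have := iterComm_le_lowerCentralSeries M A n
    rw [hn'] at this
    exact this.trans bot_le
  have hle : ∀ k, iterComm M A k ≤ M := by
    intro k
    induction k with
    | zero => exact le_rfl
    | succ k ih => exact (commutator_mono ih le_rfl).trans (commutator_le_left M A)
  let k := Nat.find hex
  have hk : iterComm M A k ≤ normalizer (A : Set S) := Nat.find_spec hex
  have hk0 : k ≠ 0 := by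
    intro h0
    rw [h0] at hk
    exact h hk
  obtain ⟨j, hj⟩ := Nat.exists_eq_succ_of_ne_zero hk0
  have hjn : ¬ iterComm M A j ≤ normalizer (A : Set S) := Nat.find_min hex (by omega)
  obtain ⟨m, hm, hmn⟩ := Set.not_subset.mp hjn
  refine ⟨m, hle j hm, hmn, fun a ha => ?_⟩
  have h1 : ⁅m, a⁆ ∈ iterComm M A (j + 1) := commutator_mem_commutator hm ha
  refine ⟨hle _ h1, ?_⟩
  rw [hj] at hk
  exact hk h1

theorem mem_normalizer_of_commutators [Finite S] {A : Subgroup S} {g : S}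
    (h : ∀ a ∈ A, ⁅g, a⁆ ∈ A) : g ∈ normalizer (A : Set S) := by
  have h1 : ∀ a ∈ A, g * a * g⁻¹ ∈ A := by
    intro a ha
    have e : g * a * g⁻¹ = ⁅g, a⁆ * a := by rw [commutatorElement_def]; group
    rw [e]; exact mul_mem (h a ha) ha
  rw [Subgroup.mem_normalizer_iff]
  intro x
  refine ⟨h1 x, fun hx => ?_⟩
  -- finite: conj by g maps A into A, so is bijective
  have hmap : A.map (MulAut.conj g).toMonoidHom = A := by
    apply eq_of_le_of_card_ge
    · rintro _ ⟨a, ha, rfl⟩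
      exact h1 a ha
    · exact (Nat.card_congr (A.equivMapOfInjective (MulAut.conj g).toMonoidHom
        (MulAut.conj g).injective).toEquiv).le
  have : g * x * g⁻¹ ∈ A.map (MulAut.conj g).toMonoidHom := by rw [hmap]; exact hx
  obtain ⟨y, hy, hyx⟩ := this
  have h2 : MulAut.conj g y = MulAut.conj g x := hyx
  have h3 := (MulAut.conj g).injective h2
  rw [← h3]; exact hy

/-- `D*(S)` lies in every abelian subgroup of maximal order. -/
theorem dStar_le_maxAbelian [Finite S] [Group.IsNilpotent S] {A : Subgroup S}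
    (hA : A ∈ Cfsg.maxAbelianSubgroups S) : Cfsg.dStar S ≤ A := by
  classical
  by_contra hcon
  set D := Cfsg.dStar S with hD
  let s : Set (Subgroup S) := {A | A ∈ Cfsg.maxAbelianSubgroups S ∧ ¬ D ≤ A}
  obtain ⟨A₀, ⟨hA₀, hn₀⟩, hmax⟩ := Set.exists_max_image s (fun A => Nat.card (A ⊓ D : Subgroup S))
    (Set.toFinite s) ⟨A, hA, hcon⟩
  have hDc : IsMulCommutative D := dStar_comm
  have hDn : D.Normal := dStar_normal
  -- D does not normalise A₀
  have hDnn : ¬ D ≤ normalizer (A₀ : Set S) := by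
    intro hle
    have hcomm : ⁅A₀, D⁆ = ⊥ := by
      refine family_centralizes dStar_mem_family hA₀.1 ?_
      rw [← le_normalizer_iff_commutator_le_left]
      exact hle
    apply hn₀
    intro d hd
    apply mem_of_centralizes_max hA₀
    intro a ha
    exact (mem_centralizer_iff.mp ((commutator_eq_bot_iff_le_centralizer.mp hcomm) ha) d hd).symm
  obtain ⟨m, hm, hmn, hmc⟩ := exists_replacer hDnn hDn
  obtain ⟨B, hB, hZB, hcB, -, hBM⟩ := exists_replacement hDn hDc hA₀ m (fun a ha => (hmc a ha).1)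
    (fun a ha b hb => (mem_normalizer_iff.mp (hmc a ha).2 b).mp hb)
  -- B ⊓ D is bigger
  have hlt : A₀ ⊓ D < B ⊓ D := by
    refine lt_of_le_of_ne (le_inf hZB inf_le_right) ?_
    intro heq
    apply hmn
    apply mem_normalizer_of_commutators
    intro a ha
    have : ⁅m, a⁆ ∈ B ⊓ D := mem_inf.mpr ⟨hcB a ha, (hmc a ha).1⟩
    rw [← heq] at this
    exact (mem_inf.mp this).1
  have hcardlt : Nat.card (A₀ ⊓ D : Subgroup S) < Nat.card (B ⊓ D : Subgroup S) := by
    by_contra hle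
    exact hlt.ne (eq_of_le_of_card_ge hlt.le (not_lt.mp hle))
  have hDB : D ≤ B := by
    by_contra hDB
    exact absurd (hmax B ⟨hB, hDB⟩) (not_le.mpr hcardlt)
  apply hDnn
  intro d hd
  obtain ⟨a, ha, z, hz, rfl⟩ := hBM d (hDB hd) hd
  exact mul_mem (le_normalizer hz.1) (hmc a ha).2

theorem exists_maxAbelian (S : Type*) [Group S] [Finite S] :
    ∃ A : Subgroup S, A ∈ Cfsg.maxAbelianSubgroups S := by
  let s : Set (Subgroup S) := {A | IsMulCommutative A}
  obtain ⟨A, hA, hmax⟩ := Set.exists_max_image s (fun A => Nat.card A)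
    (Set.toFinite s) ⟨⊥, show IsMulCommutative (⊥ : Subgroup S) from inferInstance⟩
  exact ⟨A, hA, fun B hB => hmax B hB⟩

/-- `D*(S) ≤ Z(J(S))`. -/
theorem dStar_le_center_thompson [Finite S] [Group.IsNilpotent S] :
    Cfsg.dStar S ≤ Cfsg.thompsonSubgroupA S ⊓
      Subgroup.centralizer (Cfsg.thompsonSubgroupA S : Set S) := by
  refine le_inf ?_ ?_
  · obtain ⟨A, hA⟩ := exists_maxAbelian S
    exact (dStar_le_maxAbelian hA).trans (le_sSup hA)
  · rw [le_centralizer_iff]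
    refine sSup_le fun A hA => ?_
    rw [le_centralizer_iff]
    intro d hd
    rw [mem_centralizer_iff]
    intro a ha
    exact commS hA.1 ha (dStar_le_maxAbelian hA hd)

/-- **Weak replacement theorem for metabelian groups** (Gillam). -/
theorem weak_replacement [Finite S] [Group.IsNilpotent S] (hmeta : IsMulCommutative (_root_.commutator S))
    (A : Subgroup S) (hA : A ∈ Cfsg.maxAbelianSubgroups S) :
    ∃ B ∈ Cfsg.maxAbelianSubgroups S, B.Normal ∧ B ≤ Subgroup.normalClosure (A : Set S) := by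
  classical
  set M := _root_.commutator S with hM
  set N := Subgroup.normalClosure (A : Set S) with hN
  let s : Set (Subgroup S) := {B | B ∈ Cfsg.maxAbelianSubgroups S ∧ B ≤ N}
  obtain ⟨A₀, ⟨hA₀, hn₀⟩, hmax⟩ := Set.exists_max_image s (fun A => Nat.card (A ⊓ M : Subgroup S))
    (Set.toFinite s) ⟨A, hA, subset_normalClosure⟩
  have hMn : M.Normal := inferInstance
  have hNn : N.Normal := normalClosure_normal
  have key : ∀ g : S, (∀ a ∈ A₀, ⁅g, a⁆ ∈ M ∧ ⁅g, a⁆ ∈ normalizer (A₀ : Set S)) →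
      g ∈ normalizer (A₀ : Set S) := by
    intro g hg
    obtain ⟨B, hB, hZB, hcB, hBN, hBM⟩ := exists_replacement hMn hmeta hA₀ g
      (fun a ha => (hg a ha).1) (fun a ha b hb => (mem_normalizer_iff.mp (hg a ha).2 b).mp hb)
    have heq : A₀ ⊓ M = B ⊓ M := eq_of_le_of_card_ge (le_inf hZB inf_le_right)
      (hmax B ⟨hB, hBN N hNn hn₀⟩)
    apply mem_normalizer_of_commutators
    intro a ha
    have : ⁅g, a⁆ ∈ B ⊓ M := mem_inf.mpr ⟨hcB a ha, (hg a ha).1⟩
    rw [← heq] at this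
    exact (mem_inf.mp this).1
  have hMA : M ≤ normalizer (A₀ : Set S) := by
    by_contra hcon
    obtain ⟨m, hm, hmn, hmc⟩ := exists_replacer hcon hMn
    exact hmn (key m hmc)
  refine ⟨A₀, hA₀, ?_, hn₀⟩
  rw [← normalizer_eq_top_iff, eq_top_iff]
  intro g _
  refine key g fun a ha => ?_
  have : ⁅g, a⁆ ∈ M := by
    rw [hM, commutator_def]
    exact commutator_mem_commutator (mem_top g) (mem_top a)
  exact ⟨this, hMA this⟩

end Cfsg.Agent.H276
end
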